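import Mathlib
import Cfsg.Agent.Lib.Helper35.JR.Defs

/-!
# Project JR (S3206): package [NL]

Transport of the `PSL₂(F)` facts to an abstract group `N ≅ PSL₂(F)`, plus simplicity and
generation by squares.
-/

set_option autoImplicit false

namespace Cfsg.Agent.Lib.Helper3.JR

universe u v

/-- `2 ≠ 0` in a finite field of odd cardinality. -/
theorem two_ne_zero_of_odd_card_h3 (F : Type v) [Field F] [Fintype F]
    (hodd : Odd (Fintype.card F)) : (2 : F) ≠ 0 := by
  intro h
  have hdvd : ringChar F ∣ 2 := by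
    have h' : ((2 : ℕ) : F) = 0 := by exact_mod_cast h
    exact (ringChar.spec F 2).1 h'
  have hchar : ringChar F = 2 := by
    rcases (Nat.dvd_prime Nat.prime_two).1 hdvd with h1 | h2
    · exact absurd h1 CharP.ringChar_ne_one
    · exact h2
  have := FiniteField.even_card_of_char_two hchar
  rcases hodd with ⟨m, hm⟩
  omega

/-- An element of `PSL₂(F)` whose square is not trivial (`2 ≠ 0`). -/
theorem exists_sq_ne_one_psl_h3 (F : Type v) [Field F] (h2 : (2 : F) ≠ 0) :
    ∃ x : Matrix.ProjectiveSpecialLinearGroup (Fin 2) F, x ^ 2 ≠ 1 := by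
  let T : Matrix.SpecialLinearGroup (Fin 2) F := ⟨!![1, 1; 0, 1], by simp [Matrix.det_fin_two]⟩
  refine ⟨QuotientGroup.mk T, ?_⟩
  intro h
  rw [← QuotientGroup.mk_pow] at h
  have h' : T ^ 2 ∈ Subgroup.center (Matrix.SpecialLinearGroup (Fin 2) F) :=
    (QuotientGroup.eq_one_iff _).1 h
  rw [Matrix.SpecialLinearGroup.mem_center_iff] at h'
  obtain ⟨r, _, hs⟩ := h'
  have h01 := congrFun (congrFun hs 0) 1
  have hT : ((T ^ 2 : Matrix.SpecialLinearGroup (Fin 2) F) : Matrix (Fin 2) (Fin 2) F) 0 1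
      = 2 := by
    rw [pow_two, Matrix.SpecialLinearGroup.coe_mul]
    show (!![1, 1; 0, 1] * !![1, 1; 0, 1] : Matrix (Fin 2) (Fin 2) F) 0 1 = 2
    simp [Matrix.mul_apply, Fin.sum_univ_two]
    norm_num
  rw [hT] at h01
  simp [Matrix.scalar_apply, Matrix.diagonal_apply] at h01
  exact h2 h01.symm

open Cfsg.Agent.Lib.Helper35.JR in
/-- [NL] -/
theorem pkgNL (hPSL : PkgPSL.{v}) : PkgNL.{u, v} := by
  intro N _ _ F _ _ hodd h3 ⟨e⟩ hab
  classical
  have h2 : (2 : F) ≠ 0 := two_ne_zero_of_odd_card_h3 F hodd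
  haveI hsP : IsSimpleGroup (Matrix.ProjectiveSpecialLinearGroup (Fin 2) F) :=
    Matrix.ProjectiveSpecialLinearGroup.rank_two_simple
      (by rw [Nat.card_eq_fintype_card]; omega)
  haveI hsN : IsSimpleGroup N := e.isSimpleGroup
  -- transported Sylow subgroups
  have hQ : ∀ Q : Sylow 2 N, ∃ Q' : Sylow 2 (Matrix.ProjectiveSpecialLinearGroup (Fin 2) F),
      ∀ y, y ∈ (Q' : Subgroup (Matrix.ProjectiveSpecialLinearGroup (Fin 2) F)) ↔
        e.symm y ∈ (Q : Subgroup N) := by
    intro Q
    refine ⟨Q.comapOfInjective e.symm.toMonoidHom e.symm.injective ?_, ?_⟩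
    · intro x _
      exact ⟨e x, by simp⟩
    · intro y
      rfl
  have hR : ∀ R : Sylow 2 (Matrix.ProjectiveSpecialLinearGroup (Fin 2) F), ∃ R' : Sylow 2 N,
      ∀ x, x ∈ (R' : Subgroup N) ↔
        e x ∈ (R : Subgroup (Matrix.ProjectiveSpecialLinearGroup (Fin 2) F)) := by
    intro R
    refine ⟨R.comapOfInjective e.toMonoidHom e.injective ?_, ?_⟩
    · intro y _
      exact ⟨e.symm y, by simp⟩
    · intro x
      rfl
  have habP : ∀ R : Sylow 2 (Matrix.ProjectiveSpecialLinearGroup (Fin 2) F),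
      ∀ x ∈ (R : Subgroup (Matrix.ProjectiveSpecialLinearGroup (Fin 2) F)),
      ∀ y ∈ (R : Subgroup (Matrix.ProjectiveSpecialLinearGroup (Fin 2) F)), x * y = y * x := by
    intro R x hx y hy
    obtain ⟨R', hR'⟩ := hR R
    have hx' : e.symm x ∈ (R' : Subgroup N) := by rw [hR']; simpa using hx
    have hy' : e.symm y ∈ (R' : Subgroup N) := by rw [hR']; simpa using hy
    have := hab R' _ hx' _ hy'
    have h' := congrArg e this
    simpa using h'
  obtain ⟨hS, hA⟩ := hPSL F hodd h3 habP
  refine ⟨hsN, ?_, ?_, ?_⟩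
  · -- closure of squares
    set K : Subgroup N := Subgroup.closure {y : N | ∃ x : N, x ^ 2 = y} with hK
    have hnorm : K.Normal := by
      refine ⟨fun n hn g => ?_⟩
      have hmap : K.map (MulAut.conj g).toMonoidHom ≤ K := by
        rw [hK, MonoidHom.map_closure]
        apply Subgroup.closure_mono
        rintro _ ⟨y, ⟨x, rfl⟩, rfl⟩
        refine ⟨g * x * g⁻¹, ?_⟩
        simp [MulAut.conj_apply, conj_pow]
      have : (MulAut.conj g).toMonoidHom n ∈ K.map (MulAut.conj g).toMonoidHom :=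
        Subgroup.mem_map_of_mem _ hn
      have h' := hmap this
      simpa [MulAut.conj_apply] using h'
    rcases hnorm.eq_bot_or_eq_top with hbot | htop
    · exfalso
      obtain ⟨x, hx⟩ := exists_sq_ne_one_psl_h3 F h2
      apply hx
      have hmem : (e.symm x) ^ 2 ∈ K := Subgroup.subset_closure ⟨e.symm x, rfl⟩
      rw [hbot, Subgroup.mem_bot] at hmem
      have h' := congrArg e hmem
      simpa using h'
    · exact htop
  · -- Sylow subgroups
    intro Q
    obtain ⟨Q', hQ'⟩ := hQ Q
    obtain ⟨hc, hexp⟩ := hS Q'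
    constructor
    · rw [← hc]
      apply Nat.card_congr
      exact
        { toFun := fun x => ⟨e x.1, by rw [hQ']; simpa using x.2⟩
          invFun := fun y => ⟨e.symm y.1, (hQ' y.1).1 y.2⟩
          left_inv := fun x => by simp
          right_inv := fun y => by simp }
    · intro x hx
      have hex : e x ∈ (Q' : Subgroup (Matrix.ProjectiveSpecialLinearGroup (Fin 2) F)) := by
        rw [hQ']; simpa using hx
      have h' := hexp _ hex
      rw [← map_pow] at h'
      have h'' := congrArg e.symm h'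
      simpa using h''
  · -- automorphisms
    intro α k hα Q hfix
    obtain ⟨Q', hQ'⟩ := hQ Q
    have hα' : (MulAut.congr e α) ^ (2 ^ k) = 1 := by
      rw [← map_pow]
      have : (α ^ (2 ^ k) : MulAut N) = 1 := hα
      rw [this, map_one]
    have hfix' : ∀ y ∈ (Q' : Subgroup (Matrix.ProjectiveSpecialLinearGroup (Fin 2) F)),
        (MulAut.congr e α) y = y := by
      intro y hy
      have hy' := (hQ' y).1 hy
      show e (α (e.symm y)) = y
      rw [hfix _ hy']
      simp
    obtain ⟨v', hv', hconj⟩ := hA (MulAut.congr e α) k hα' Q' hfix'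
    refine ⟨e.symm v', (hQ' v').1 hv', ?_⟩
    intro x
    have h1 : e (α x) = v' * e x * v'⁻¹ := by
      have := hconj (e x)
      have h0 : (MulAut.congr e α) (e x) = e (α (e.symm (e x))) := rfl
      rw [h0] at this
      simpa using this
    have h2' := congrArg e.symm h1
    simpa using h2'

end Cfsg.Agent.Lib.Helper3.JR
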